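import Mathlib

/-!
# Chief factors of prime order

* `exists_eigen`: an endomorphism `φ` of a nontrivial elementary abelian `q`-group with `φ ^ q = φ` has an
  eigenvector.
* `exists_normal_of_order`: if `N ≠ 1` is an elementary abelian normal `q`-subgroup of `G` centralized by all
  commutators and all `(q - 1)`-th powers of elements of `G`, then `N` contains a normal subgroup of `G` of order `q`.
-/

set_option autoImplicit false

namespace Cfsg.Agent.H269

open Subgroup
open scoped commutatorElement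

/-- An endomorphism `φ` of a nontrivial finite elementary abelian `q`-group with `φ ^ q = φ` has an
eigenvector. -/
theorem exists_eigen {A : Type*} [CommGroup A] [Finite A] [Nontrivial A] {q : ℕ} [hq : Fact q.Prime]
    (hA : ∀ a : A, a ^ q = 1) (φ : A →* A) (hφ : ∀ a : A, φ^[q] a = φ a) :
    ∃ (c : ℕ) (a : A), a ≠ 1 ∧ φ a = a ^ c := by
  let _ : Module (ZMod q) (Additive A) := AddCommGroup.zmodModule (n := q) (fun x => hA x.toMul)
  let f : Module.End (ZMod q) (Additive A) := (MonoidHom.toAdditive φ).toZModLinearMap q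
  have hf1 : ∀ x : Additive A, f x = Additive.ofMul (φ x.toMul) := fun x => rfl
  have hfk : ∀ (k : ℕ) (x : Additive A), (f ^ k) x = Additive.ofMul (φ^[k] x.toMul) := by
    intro k
    induction k with
    | zero => intro x; rfl
    | succ k ih =>
      intro x
      rw [pow_succ, Module.End.mul_apply, ih, hf1, Function.iterate_succ, Function.comp_apply]
      rfl
  have haev : Polynomial.aeval f (Polynomial.X ^ q - Polynomial.X : Polynomial (ZMod q)) = 0 := by
    rw [map_sub, map_pow, Polynomial.aeval_X, sub_eq_zero]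
    apply LinearMap.ext
    intro x
    rw [hfk, hφ, hf1]
  have hdvd := minpoly.dvd (ZMod q) f haev
  have hne : (Polynomial.X ^ q - Polynomial.X : Polynomial (ZMod q)) ≠ 0 :=
    FiniteField.X_pow_card_sub_X_ne_zero _ hq.out.one_lt
  have hsplit : (Polynomial.X ^ q - Polynomial.X : Polynomial (ZMod q)).Splits := by
    have h := FiniteField.splits_X_pow_card_sub_X (K := ZMod q) (p := q)
    rw [ZMod.card] at h
    have h2 : algebraMap (ZMod q) (ZMod q) = RingHom.id _ := rfl
    rw [h2, Polynomial.map_id] at h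
    exact h
  have hsp := hsplit.of_dvd hne hdvd
  have hfin : Module.Finite (ZMod q) (Additive A) := Module.Finite.of_finite
  have hnt : Nontrivial (Additive A) := inferInstance
  have hdeg : (minpoly (ZMod q) f).degree ≠ 0 := by
    have hint : IsIntegral (ZMod q) f := Algebra.IsIntegral.isIntegral f
    exact (minpoly.degree_pos hint).ne'
  obtain ⟨μ, hμ⟩ := hsp.exists_eval_eq_zero hdeg
  have hev := Module.End.hasEigenvalue_of_isRoot (f := f) (μ := μ) hμ
  obtain ⟨v, hv⟩ := hev.exists_hasEigenvector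
  refine ⟨μ.val, v.toMul, ?_, ?_⟩
  · intro h
    exact hv.2 (by
      have : Additive.ofMul v.toMul = Additive.ofMul 1 := congrArg _ h
      exact this)
  · have h1 := hv.apply_eq_smul
    have h2 : μ • v = μ.val • v := by
      conv_lhs => rw [← ZMod.natCast_zmod_val μ]
      rw [Nat.cast_smul_eq_nsmul]
    rw [h2, hf1] at h1
    exact h1

/-- If `N ≠ 1` is an elementary abelian normal `q`-subgroup of `G` centralized by all commutators and all
`(q - 1)`-th powers of elements of `G`, then `N` contains a normal subgroup of `G` of order `q`. -/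
theorem exists_normal_of_order {G : Type*} [Group G] [Finite G] {q : ℕ} [hq : Fact q.Prime] : ∀ (n : ℕ)
    (N : Subgroup G), N.Normal → Nat.card N = n → N ≠ ⊥ → (∀ a ∈ N, ∀ b ∈ N, a * b = b * a) →
    (∀ a ∈ N, a ^ q = 1) → (∀ z ∈ N, ∀ a b : G, ⁅a, b⁆ * z = z * ⁅a, b⁆) →
    (∀ z ∈ N, ∀ a : G, a ^ (q - 1) * z = z * a ^ (q - 1)) →
    ∃ M ≤ N, M.Normal ∧ Nat.card M = q := by
  intro n
  induction n using Nat.strong_induction_on with
  | _ n ih =>
  intro N hNn hcard hne hab hexp hcomm hpow
  by_cases hall : ∀ a : G, ∃ c : ℕ, ∀ z ∈ N, a * z * a⁻¹ = z ^ c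
  · obtain ⟨⟨z, hz⟩, hz0⟩ := Subgroup.ne_bot_iff_exists_ne_one.1 hne
    have hz1 : z ≠ 1 := fun h' => hz0 (Subtype.ext h')
    have hzq : orderOf (z : G) = q := orderOf_eq_prime (hexp _ hz) hz1
    refine ⟨zpowers (z : G), zpowers_le.2 hz, ⟨?_⟩, by rw [Nat.card_zpowers, hzq]⟩
    rintro _ ⟨k, rfl⟩ g
    obtain ⟨c, hc⟩ := hall g
    have h1 : g * (z : G) ^ k * g⁻¹ = (g * z * g⁻¹) ^ k := by rw [conj_zpow]
    show g * (z : G) ^ k * g⁻¹ ∈ zpowers (z : G)
    rw [h1, hc _ hz]
    exact zpow_mem (pow_mem (mem_zpowers _) c) k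
  · push Not at hall
    obtain ⟨a, ha⟩ := hall
    let _ : CommGroup N := { (inferInstance : Group N) with mul_comm := fun x y => Subtype.ext (hab x x.2 y y.2) }
    have : Nontrivial N := (Subgroup.nontrivial_iff_ne_bot N).2 hne
    let φ : N →* N :=
      { toFun := fun z => ⟨a * z * a⁻¹, hNn.conj_mem z z.2 a⟩
        map_one' := Subtype.ext (by simp)
        map_mul' := fun x y => Subtype.ext (by simp [mul_assoc]) }
    have hφk : ∀ (k : ℕ) (z : N), ((φ^[k] z : N) : G) = a ^ k * z * (a ^ k)⁻¹ := by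
      intro k
      induction k with
      | zero => intro z; simp
      | succ k ihk =>
        intro z
        rw [Function.iterate_succ, Function.comp_apply, ihk]
        show a ^ k * (a * z * a⁻¹) * (a ^ k)⁻¹ = _
        rw [pow_succ]
        group
    obtain ⟨c, z, hz1, hz⟩ := exists_eigen (A := N) (q := q) (fun x => Subtype.ext (by simpa using hexp x x.2)) φ
      (by
        intro z
        apply Subtype.ext
        rw [hφk]
        show a ^ q * (z : G) * (a ^ q)⁻¹ = a * z * a⁻¹
        obtain ⟨m, hm⟩ : ∃ m, q = m + 1 := ⟨q - 1, by have := hq.out.pos; omega⟩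
        have h1 := hpow z z.2 a
        have h2 : q - 1 = m := by omega
        rw [h2] at h1
        rw [hm, pow_succ']
        calc a * a ^ m * (z : G) * (a * a ^ m)⁻¹ = a * (a ^ m * z) * (a * a ^ m)⁻¹ := by group
          _ = a * (z * a ^ m) * (a * a ^ m)⁻¹ := by rw [h1]
          _ = a * z * a⁻¹ := by group)
    -- the eigenspace
    let Nc : Subgroup G :=
      { carrier := {x | x ∈ N ∧ a * x * a⁻¹ = x ^ c}
        one_mem' := ⟨one_mem _, by simp⟩
        mul_mem' := by
          rintro x y ⟨hx, hx'⟩ ⟨hy, hy'⟩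
          refine ⟨mul_mem hx hy, ?_⟩
          have hcxy : Commute x y := hab x hx y hy
          rw [hcxy.mul_pow, ← hx', ← hy']
          group
        inv_mem' := by
          rintro x ⟨hx, hx'⟩
          refine ⟨inv_mem hx, ?_⟩
          rw [inv_pow, ← hx']
          group }
    have hmem : ∀ x, x ∈ Nc ↔ x ∈ N ∧ a * x * a⁻¹ = x ^ c := fun x => Iff.rfl
    have hNcN : Nc ≤ N := fun x hx => hx.1
    have hNcn : Nc.Normal := by
      refine ⟨fun x hx g => ?_⟩
      obtain ⟨hx1, hx2⟩ := (hmem x).1 hx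
      refine (hmem _).2 ⟨hNn.conj_mem x hx1 g, ?_⟩
      have h1 := hcomm x hx1 a⁻¹ g⁻¹
      have h2 : a * (g * x * g⁻¹) * a⁻¹ = g * (a * (⁅a⁻¹, g⁻¹⁆ * x * ⁅a⁻¹, g⁻¹⁆⁻¹) * a⁻¹) * g⁻¹ := by
        rw [commutatorElement_def]; group
      rw [h2, h1, mul_inv_cancel_right, hx2]
      rw [conj_pow]
    have hNc1 : Nc ≠ ⊥ := by
      intro h
      have h1 : (z : G) ∈ Nc := (hmem _).2 ⟨z.2, by
        have h3 : ((φ z : N) : G) = ((z ^ c : N) : G) := congrArg (fun w : N => (w : G)) hz
        exact h3⟩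
      rw [h, mem_bot] at h1
      exact hz1 (Subtype.ext h1)
    have hlt : Nat.card Nc < n := by
      rw [← hcard]
      apply lt_of_le_of_ne (Subgroup.card_le_of_le hNcN)
      intro h
      have h1 : Nc = N := Subgroup.eq_of_le_of_card_ge hNcN h.ge
      obtain ⟨w, hw, hw'⟩ := ha c
      rw [← h1] at hw
      exact hw' ((hmem w).1 hw).2
    obtain ⟨M, hM1, hM2, hM3⟩ := ih _ hlt Nc hNcn rfl hNc1 (fun x hx y hy => hab x (hNcN hx) y (hNcN hy))
      (fun x hx => hexp x (hNcN hx)) (fun x hx => hcomm x (hNcN hx)) (fun x hx => hpow x (hNcN hx))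
    exact ⟨M, hM1.trans hNcN, hM2, hM3⟩

end Cfsg.Agent.H269
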