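import Mathlib
import Cfsg.Agent.H794.SmallFix
import Cfsg.Agent.Lib.FrattiniPGroup
import Cfsg.Agent.Schreier.Tools2

/-!
# Coprime automorphisms of a `p`-group and the subgroups of one fixed order

`eq_one_of_fixed_order`: an automorphism `b` of order prime to `p` of a finite `p`-group `Q` is trivial as
soon as (for one fixed `1 < p ^ k < #Q`) it acts trivially on `M / E` whenever `M` is non-cyclic of order
`p ^ (k + 1)` and `E ≤ M` has order `p ^ k`, and fixes pointwise the cyclic subgroups of order `p ^ k`
(and those of order 4 when `p ^ k = 2`).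
-/

set_option autoImplicit false

namespace Cfsg.Agent.H269

open Subgroup

/-- Subgroups of intermediate order between two subgroups, the larger one a `p`-group. -/
theorem exists_between {G : Type*} [Group G] [Finite G] {p : ℕ} [hp : Fact p.Prime] (E L : Subgroup G)
    (hEL : E ≤ L) {n m : ℕ} (hE : Nat.card E = p ^ n) (hnm : n ≤ m) (hL : p ^ m ∣ Nat.card L) :
    ∃ M : Subgroup G, E ≤ M ∧ M ≤ L ∧ Nat.card M = p ^ m := by
  have hE' : Nat.card (E.subgroupOf L) = p ^ n := by
    rw [← hE]
    exact Nat.card_congr (Subgroup.subgroupOfEquivOfLe hEL).toEquiv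
  obtain ⟨K, hK, hEK⟩ := Sylow.exists_subgroup_card_pow_prime_le (G := L) p hL (E.subgroupOf L) hE' hnm
  refine ⟨K.map L.subtype, ?_, map_subtype_le K, ?_⟩
  · intro x hx
    exact ⟨⟨x, hEL hx⟩, hEK (mem_subgroupOf.2 hx), rfl⟩
  · rw [← hK]
    exact (Nat.card_congr (K.equivMapOfInjective L.subtype L.subtype_injective).toEquiv).symm

/-- The order of an element of a finite `p`-group `L` divides `p ^ m` or is a larger power of `p`; if it divides
`p ^ m` and `p ^ m` divides `#L`, the element lies in a subgroup of `L` of order `p ^ m`. -/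
theorem exists_subgroup_mem {G : Type*} [Group G] [Finite G] {p : ℕ} [hp : Fact p.Prime] (L : Subgroup G)
    {m : ℕ} (hL : p ^ m ∣ Nat.card L) (u : G) (hu : u ∈ L) (hum : u ^ p ^ m = 1) :
    ∃ M : Subgroup G, u ∈ M ∧ M ≤ L ∧ Nat.card M = p ^ m := by
  obtain ⟨n, hn, hn'⟩ := (Nat.dvd_prime_pow hp.out).1 (orderOf_dvd_of_pow_eq_one hum)
  obtain ⟨M, h1, h2, h3⟩ := exists_between (p := p) (zpowers u) L (zpowers_le.2 hu) (n := n) (m := m)
    (by rw [Nat.card_zpowers]; exact hn') hn hL
  exact ⟨M, h1 (mem_zpowers u), h2, h3⟩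

/-- An automorphism of order prime to `p` of a finite `p`-group which is trivial on all the sections `M / E`,
`M` non-cyclic of order `p ^ (k + 1)` and `E` of order `p ^ k`, and on the cyclic subgroups of order `p ^ k`
(and 4 if `p ^ k = 2`) is trivial. -/
theorem eq_one_of_fixed_order {Q : Type*} [Group Q] [Finite Q] {p : ℕ} [hp : Fact p.Prime]
    (hQ : IsPGroup p Q) (b : MulAut Q) (hb : (orderOf b).Coprime p) {k : ℕ} (hk : 1 ≤ k)
    (hcard : p ^ (k + 1) ∣ Nat.card Q)
    (h1 : ∀ E M : Subgroup Q, E ≤ M → Nat.card E = p ^ k → Nat.card M = p ^ (k + 1) → ¬ IsCyclic M →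
      ∀ m ∈ M, m⁻¹ * b m ∈ E)
    (h2 : ∀ E : Subgroup Q, IsCyclic E → (Nat.card E = p ^ k ∨ (p ^ k = 2 ∧ Nat.card E = 4)) →
      ∀ e ∈ E, b e = e) :
    b = 1 := by
  have hclaim : ∀ E : Subgroup Q, Nat.card E = p ^ k → ∀ e ∈ E, b e = e := by
    intro E hE
    by_cases hc : IsCyclic E
    · exact h2 E hc (Or.inl hE)
    · obtain ⟨M, hEM, -, hM⟩ := exists_between (p := p) E ⊤ le_top (n := k) (m := k + 1) hE (Nat.le_succ k)
        (by rw [Subgroup.card_top]; exact hcard)
      have hMc : ¬ IsCyclic M := by
        intro hMc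
        apply hc
        exact isCyclic_of_injective (Subgroup.inclusion hEM) (Subgroup.inclusion_injective hEM)
      have hinv : ∀ m ∈ M, b m ∈ M := by
        intro m hm
        have h3 := hEM (h1 E M hEM hE hM hMc m hm)
        have h4 := M.mul_mem hm h3
        rwa [mul_inv_cancel_left] at h4
      obtain ⟨c, hc1, hc2⟩ := H794.exists_restrict b M hinv
      have hMp : IsPGroup p M := hQ.to_subgroup M
      have hc3 : c = 1 := by
        apply Schreier.Tools2.eq_one_of_coprime hMp c (Nat.Coprime.coprime_dvd_left hc2 hb)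
        intro t
        have hn : (frattini M).Normal := inferInstance
        have h5 : t⁻¹ * c t ∈ frattini M := by
          rw [frattini, Order.radical, Subgroup.mem_iInf]
          intro L
          rw [Subgroup.mem_iInf]
          intro hL
          have hL' : IsCoatom L := hL
          have hLi := Lib.FrattiniPGroup.index_of_coatom hMp hL'
          have hLc : Nat.card (L.map M.subtype) = p ^ k := by
            have h6 : Nat.card (L.map M.subtype) = Nat.card L :=
              (Nat.card_congr (L.equivMapOfInjective M.subtype M.subtype_injective).toEquiv).symm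
            rw [h6]
            have h7 := L.card_mul_index
            rw [hLi, hM, pow_succ] at h7
            exact Nat.eq_of_mul_eq_mul_right hp.out.pos h7
          have h8 := h1 (L.map M.subtype) M (map_subtype_le L) hLc hM hMc t t.2
          obtain ⟨y, hy, hy'⟩ := h8
          have h9 : y = t⁻¹ * c t := by
            apply Subtype.ext
            have h10 : ((t⁻¹ * c t : M) : Q) = (t : Q)⁻¹ * ((c t : M) : Q) := rfl
            rw [h10, hc1]
            exact hy'
          rw [← h9]
          exact hy
        have h6 := hn.conj_mem _ h5 t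
        have h7 : t * (t⁻¹ * c t) * t⁻¹ = c t * t⁻¹ := by group
        rwa [h7] at h6
      intro e he
      have h4 := hc1 ⟨e, hEM he⟩
      rw [hc3] at h4
      exact h4.symm
  apply H794.mulAut_eq_one_of_fix_small hQ b hb
  have hcard' : p ^ k ∣ Nat.card (⊤ : Subgroup Q) := by
    rw [Subgroup.card_top]
    exact (pow_dvd_pow p (Nat.le_succ k)).trans hcard
  intro x hx
  rcases hx with hx | ⟨hp2, hx⟩
  · obtain ⟨M, hxM, -, hM⟩ := exists_subgroup_mem (p := p) (⊤ : Subgroup Q) hcard' x (mem_top x)
      (by
        obtain ⟨j, rfl⟩ : ∃ j, k = j + 1 := ⟨k - 1, by omega⟩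
        rw [pow_succ', pow_mul, hx, one_pow])
    exact hclaim M hM x hxM
  · subst hp2
    by_cases hk1 : k = 1
    · subst hk1
      by_cases hx2 : x ^ 2 = 1
      · obtain ⟨M, hxM, -, hM⟩ := exists_subgroup_mem (p := 2) (⊤ : Subgroup Q) hcard' x (mem_top x)
          (by rw [pow_one]; exact hx2)
        exact hclaim M hM x hxM
      · have h4 : orderOf x = 4 := by
          have : orderOf x = 2 ^ (1 + 1) := by
            apply orderOf_eq_prime_pow
            · rw [pow_one]; exact hx2
            · exact hx
          rw [this]; norm_num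
        apply h2 (zpowers x) inferInstance (Or.inr ⟨by norm_num, ?_⟩) x (mem_zpowers x)
        rw [Nat.card_zpowers]
        exact h4
    · obtain ⟨M, hxM, -, hM⟩ := exists_subgroup_mem (p := 2) (⊤ : Subgroup Q) hcard' x (mem_top x)
        (by
          obtain ⟨j, rfl⟩ : ∃ j, k = 2 + j := ⟨k - 2, by omega⟩
          rw [pow_add, pow_mul]
          norm_num
          rw [hx, one_pow])
      exact hclaim M hM x hxM

end Cfsg.Agent.H269
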