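import Cfsg.Agent.H269.PsuFourBase
import Cfsg.Agent.S0279

/-!
# Centralizers of four-subgroups of `PSU₃(q)`, `q` odd: main result (S3574, lemma T2, for helper5)
-/

set_option autoImplicit false

namespace Cfsg.Agent.H269.PsuFour

open Cfsg Subgroup Matrix

section su

open Cfsg.Agent.TwoGenCore.U3 Cfsg.Agent.LieClassical.GUOrder Cfsg.Agent.LieClassical.SUBasic

variable {F : Type*} [Field F] [Fintype F] {q : ℕ}

/-- The standard basis vectors. -/
abbrev e (F : Type*) [Field F] (i : Fin 3) : Fin 3 → F := Pi.single i 1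

theorem herm_e (hF : Fintype.card F = q ^ 2) (i j : Fin 3) :
    hermForm 3 F q (e F i) (e F j) = if i = j then 1 else 0 := by
  rw [Cfsg.Agent.LieClassical.HermBasic.herm_single_left]
  by_cases h : i = j
  · subst h
    simp
  · rw [if_neg h, one_mul]
    change (Pi.single j (1 : F) : Fin 3 → F) i ^ q = 0
    rw [Pi.single_eq_of_ne h, Cfsg.Agent.LieClassical.HermBasic.zero_pow_q hF]

/-- An element of `SU₃` moving the standard frame to a given one (up to a scalar). -/
theorem exists_P (hF : Fintype.card F = q ^ 2) {b : Fin 3 → (Fin 3 → F)}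
    (hb : ∀ i j, hermForm 3 F q (b i) (b j) = if i = j then 1 else 0) :
    ∃ P : SU 3 F q, ∀ i, ∃ c : F, c ≠ 0 ∧ act P (e F i) = c • b i := by
  obtain ⟨g, hg, hgx⟩ := Cfsg.Agent.ClassicalGeometry.HermOrtho.exists_GU_of_orthonormal hF hb
  set M : Matrix (Fin 3) (Fin 3) F := ((g : Matrix.GeneralLinearGroup (Fin 3) F) : Matrix (Fin 3) (Fin 3) F)
    with hM
  have hMi : ∀ u v, hermForm 3 F q (M *ᵥ u) (M *ᵥ v) = hermForm 3 F q u v := fun u v => hg u v
  have hd : M.det * M.det ^ q = 1 := by
    have := det_mul_frob_det hF M hMi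
    rw [pow_succ, mul_comm] at this
    exact this
  have hd0 : M.det ≠ 0 := left_ne_zero_of_mul_eq_one hd
  have hd' : M.det⁻¹ * M.det⁻¹ ^ q = 1 := by
    rw [inv_pow, ← mul_inv, hd, inv_one]
  let D : Fin 3 → F := ![1, 1, M.det⁻¹]
  have hDi : ∀ i, D i * D i ^ q = 1 := by
    intro i
    fin_cases i
    · exact (one_mul _).trans (one_pow q)
    · exact (one_mul _).trans (one_pow q)
    · exact hd'
  have hD0 : ∀ i, D i ≠ 0 := fun i => left_ne_zero_of_mul_eq_one (hDi i)
  have hdet : (M * diagonal D).det = 1 := by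
    rw [det_mul, det_diagonal, Fin.prod_univ_three]
    change M.det * (1 * 1 * M.det⁻¹) = 1
    field_simp
  have hDu : ∀ u : Fin 3 → F, diagonal D *ᵥ u = fun i => D i * u i := fun u => by
    funext i
    rw [mulVec_diagonal]
  have hiso : ∀ u v, hermForm 3 F q ((M * diagonal D) *ᵥ u) ((M * diagonal D) *ᵥ v) =
      hermForm 3 F q u v := by
    intro u v
    rw [← mulVec_mulVec, ← mulVec_mulVec, hMi, hDu, hDu]
    simp only [hermForm]
    refine Finset.sum_congr rfl fun i _ => ?_
    rw [mul_pow]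
    linear_combination (u i * v i ^ q) * hDi i
  refine ⟨⟨⟨M * diagonal D, hdet⟩, hiso⟩, fun i => ⟨D i, hD0 i, ?_⟩⟩
  change (M * diagonal D) *ᵥ (e F i) = D i • b i
  rw [← mulVec_mulVec, hDu, hgx]
  have h1 : ∀ j, (D j * e F i j) • b j = if j = i then D i • b i else 0 := by
    intro j
    by_cases h : j = i
    · subst h
      simp
    · simp [h]
  simp only [h1]
  simp

/-- the diagonal elements of `SU₃` -/
def dd (q : ℕ) (x : ↥(H435.Elts.NO F q) × ↥(H435.Elts.NO F q)) : SU 3 F q :=
  H435.Elts.ud q ((x.1.1 : Fˣ) : F) ((x.2.1 : Fˣ) : F) ((((x.1 * x.2)⁻¹).1 : Fˣ) : F)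
    (by
      rw [← Units.val_mul, ← Units.val_mul, ← Subgroup.coe_mul, ← Subgroup.coe_mul,
        mul_inv_cancel]
      rfl) (H435.Elts.NO_spec _) (H435.Elts.NO_spec _) (H435.Elts.NO_spec _)

omit [Fintype F] in
theorem act_dd (x : ↥(H435.Elts.NO F q) × ↥(H435.Elts.NO F q)) (v : Fin 3 → F) (i : Fin 3) :
    act (dd q x) v i = ![((x.1.1 : Fˣ) : F), ((x.2.1 : Fˣ) : F),
      ((((x.1 * x.2)⁻¹).1 : Fˣ) : F)] i * v i := by
  change (diagonal _ *ᵥ v) i = _
  rw [mulVec_diagonal]

omit [Fintype F] in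
theorem dd_inj : Function.Injective (dd (F := F) q) := by
  rintro ⟨a, b⟩ ⟨a', b'⟩ h
  have h0 := congrArg (fun g : SU 3 F q => act g (e F 0) 0) h
  have h1 := congrArg (fun g : SU 3 F q => act g (e F 1) 1) h
  simp only [act_dd] at h0 h1
  simp at h0 h1
  exact Prod.ext (Subtype.ext (Units.ext h0)) (Subtype.ext (Units.ext h1))

/-- `g` commutes with `T e₀` and `T e₁` iff it is diagonal. -/
theorem comm_iff (hF : Fintype.card F = q ^ 2) (h2 : (2 : F) ≠ 0) (g : SU 3 F q) :
    (g * T hF (e F 0) = T hF (e F 0) * g ∧ g * T hF (e F 1) = T hF (e F 1) * g) ↔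
      ∃ x, g = dd q x := by
  have he : ∀ i, hermForm 3 F q (e F i) (e F i) ≠ 0 := fun i => by
    rw [herm_e hF, if_pos rfl]
    exact one_ne_zero
  constructor
  · rintro ⟨h0, h1⟩
    have h3 : g * T hF (e F 2) = T hF (e F 2) * g := by
      have h4 : T hF (e F 2) = T hF (e F 0) * T hF (e F 1) := by
        apply act_ext
        intro v
        rw [act_mul, act_T hF (he 2), act_T hF (he 1), act_T hF (he 0)]
        simp only [herm_e hF, Cfsg.Agent.LieClassical.HermBasic.herm_single_right hF]
        funext i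
        fin_cases i <;> simp <;> ring
      rw [h4, ← mul_assoc, h0, mul_assoc, h1, mul_assoc]
    obtain ⟨a, ha⟩ := eig_of_comm hF h2 (he 0) h0
    obtain ⟨b, hb⟩ := eig_of_comm hF h2 (he 1) h1
    obtain ⟨c, hc⟩ := eig_of_comm hF h2 (he 2) h3
    have hM : g.1.1 = diagonal ![a, b, c] := by
      refine Matrix.ext_of_mulVec_single fun i => ?_
      have h4 : diagonal ![a, b, c] *ᵥ (Pi.single i 1) = (![a, b, c] i) • (e F i) := by
        funext j
        rw [mulVec_diagonal, Pi.smul_apply, smul_eq_mul]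
        by_cases hji : j = i
        · rw [hji]
        · simp [hji]
      rw [h4]
      fin_cases i
      · exact ha
      · exact hb
      · exact hc
    have hdet : a * b * c = 1 := by
      have h4 := g.1.2
      rw [hM, det_diagonal, Fin.prod_univ_three] at h4
      exact h4
    have hnorm : ∀ (i : Fin 3) (d : F), act g (e F i) = d • e F i → d ^ (q + 1) = 1 := by
      intro i d hd
      have h4 := herm_act g (e F i) (e F i)
      rw [hd, herm_smul_left hF, herm_smul_right hF, herm_e hF, if_pos rfl, mul_one,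
        frob_apply] at h4
      rw [pow_succ, mul_comm]
      exact h4
    have ha0 : a ≠ 0 := by
      rintro rfl
      simp at hdet
    have hb0 : b ≠ 0 := by
      rintro rfl
      simp at hdet
    refine ⟨(⟨Units.mk0 a ha0, ?_⟩, ⟨Units.mk0 b hb0, ?_⟩), ?_⟩
    · rw [MonoidHom.mem_ker, powMonoidHom_apply]
      apply Units.ext
      rw [Units.val_pow_eq_pow_val, Units.val_mk0, Units.val_one]
      exact hnorm 0 a ha
    · rw [MonoidHom.mem_ker, powMonoidHom_apply]
      apply Units.ext
      rw [Units.val_pow_eq_pow_val, Units.val_mk0, Units.val_one]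
      exact hnorm 1 b hb
    · apply Subtype.ext
      apply Subtype.ext
      rw [hM]
      change diagonal _ = diagonal _
      congr 1
      funext i
      fin_cases i
      · rfl
      · rfl
      · change c = (((Units.mk0 a ha0 * Units.mk0 b hb0)⁻¹ : Fˣ) : F)
        rw [Units.val_inv_eq_inv_val, Units.val_mul, Units.val_mk0, Units.val_mk0]
        exact eq_inv_of_mul_eq_one_right hdet
  · rintro ⟨x, rfl⟩
    have key : ∀ i, dd q x * T hF (e F i) = T hF (e F i) * dd q x := by
      intro i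
      rw [← mul_inv_eq_iff_eq_mul, conj_T hF _ (he i)]
      have h4 : act (dd q x) (e F i) = (![((x.1.1 : Fˣ) : F), ((x.2.1 : Fˣ) : F),
          ((((x.1 * x.2)⁻¹).1 : Fˣ) : F)] i) • e F i := by
        funext j
        rw [act_dd, Pi.smul_apply, smul_eq_mul]
        by_cases hji : j = i
        · rw [hji]
        · simp [hji]
      rw [h4]
      apply T_smul hF _ (he i)
      fin_cases i
      · exact Units.ne_zero _
      · exact Units.ne_zero _
      · exact Units.ne_zero _
    exact ⟨key 0, key 1⟩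

/-- The centralizer in `SU₃(q)` of two commuting involutions. -/
theorem card_cent (hF : Fintype.card F = q ^ 2) (h2 : (2 : F) ≠ 0) {s t : SU 3 F q}
    (hs : s * s = 1) (ht : t * t = 1) (hst : s * t = t * s) (hs1 : s ≠ 1) (ht1 : t ≠ 1)
    (hne : s ≠ t) : Nat.card {g : SU 3 F q // g * s = s * g ∧ g * t = t * g} = (q + 1) ^ 2 := by
  obtain ⟨b, hb, h0, h1, -⟩ := exists_frame hF h2 hs ht hst hs1 ht1 hne
  obtain ⟨P, hP⟩ := exists_P hF hb
  have he : ∀ i, hermForm 3 F q (e F i) (e F i) ≠ 0 := fun i => by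
    rw [herm_e hF, if_pos rfl]
    exact one_ne_zero
  have hbb : ∀ i, hermForm 3 F q (b i) (b i) ≠ 0 := fun i => by
    rw [hb, if_pos rfl]
    exact one_ne_zero
  have hT : ∀ i, P * T hF (e F i) * P⁻¹ = T hF (b i) := by
    intro i
    obtain ⟨c, hc, h3⟩ := hP i
    rw [conj_T hF P (he i), h3, T_smul hF hc (hbb i)]
  have key : ∀ g : SU 3 F q, (g * s = s * g ∧ g * t = t * g) ↔ ∃ x, g = P * dd q x * P⁻¹ := by
    intro g
    have h3 := comm_iff hF h2 (P⁻¹ * g * P)
    have h4 : ∀ i, (P⁻¹ * g * P) * T hF (e F i) = T hF (e F i) * (P⁻¹ * g * P) ↔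
        g * T hF (b i) = T hF (b i) * g := by
      intro i
      rw [← hT i]
      constructor
      · intro h
        calc g * (P * T hF (e F i) * P⁻¹) = P * ((P⁻¹ * g * P) * T hF (e F i)) * P⁻¹ := by group
          _ = _ := by rw [h]; group
      · intro h
        calc (P⁻¹ * g * P) * T hF (e F i) = P⁻¹ * (g * (P * T hF (e F i) * P⁻¹)) * P := by group
          _ = _ := by rw [h]; group
    rw [h4, h4, ← h0, ← h1] at h3
    rw [h3]
    constructor
    · rintro ⟨x, hx⟩
      exact ⟨x, by rw [← hx]; group⟩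
    · rintro ⟨x, hx⟩
      exact ⟨x, by rw [hx]; group⟩
  rw [← H435.Elts.card_NO hF, sq, ← Nat.card_prod]
  symm
  refine Nat.card_eq_of_bijective (fun x => ⟨P * dd q x * P⁻¹, (key _).2 ⟨x, rfl⟩⟩) ⟨?_, ?_⟩
  · intro x y h
    have h3 := congrArg Subtype.val h
    exact dd_inj (mul_left_cancel (mul_right_cancel h3))
  · rintro ⟨g, hg⟩
    obtain ⟨x, hx⟩ := (key g).1 hg
    exact ⟨x, Subtype.ext hx.symm⟩

theorem center_cube (hF : Fintype.card F = q ^ 2) {z : SU 3 F q}
    (hz : z ∈ center (SU 3 F q)) : z ^ 3 = 1 := by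
  obtain ⟨c, hc, h⟩ := act_of_center hF hz
  apply act_ext
  intro y
  rw [pow_succ, pow_succ, pow_one, act_mul, act_mul, h, h, h, smul_smul, smul_smul, act_one,
    show c * c * c = c ^ 3 by ring, hc, one_smul]

section lift

variable {H : Type*} [Group H]

/-- Involutions lift through a central subgroup of exponent 3. -/
theorem exists_lift (h3 : ∀ z ∈ center H, z ^ 3 = 1) {x : H ⧸ center H} (hx : x * x = 1) :
    ∃ s : H, (QuotientGroup.mk' (center H)) s = x ∧ s * s = 1 := by
  obtain ⟨s, rfl⟩ := QuotientGroup.mk'_surjective (center H) x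
  have hz : s * s ∈ center H := by
    rw [← map_mul] at hx
    exact (QuotientGroup.eq_one_iff _).1 hx
  refine ⟨s * (s * s), ?_, ?_⟩
  · rw [map_mul]
    have : (QuotientGroup.mk' (center H)) (s * s) = 1 := (QuotientGroup.eq_one_iff _).2 hz
    rw [this, mul_one]
  · have h4 := h3 _ hz
    rw [← h4]
    simp only [pow_succ, pow_zero, one_mul, mul_assoc]

/-- Elements commuting modulo the centre with an involution commute with it. -/
theorem comm_lift (h3 : ∀ z ∈ center H, z ^ 3 = 1) {s g : H} (hs : s * s = 1)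
    (hg : (QuotientGroup.mk' (center H)) g * (QuotientGroup.mk' (center H)) s =
      (QuotientGroup.mk' (center H)) s * (QuotientGroup.mk' (center H)) g) : g * s = s * g := by
  have hz : g * s * g⁻¹ * s⁻¹ ∈ center H := by
    apply (QuotientGroup.eq_one_iff _).1
    change (QuotientGroup.mk' (center H)) (g * s * g⁻¹ * s⁻¹) = 1
    rw [map_mul, map_mul, map_mul, hg, map_inv, map_inv]
    group
  set z := g * s * g⁻¹ * s⁻¹ with hzd
  have h4 : g * s * g⁻¹ = z * s := by rw [hzd]; group
  have h5 : z ^ 2 = 1 := by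
    have h6 : (g * s * g⁻¹) * (g * s * g⁻¹) = 1 := by
      calc (g * s * g⁻¹) * (g * s * g⁻¹) = g * (s * s) * g⁻¹ := by group
        _ = 1 := by rw [hs]; group
    rw [h4] at h6
    have h7 : s * z = z * s := (mem_center_iff.1 hz s)
    calc z ^ 2 = z * (z * (s * s)) := by rw [hs, mul_one, sq]
      _ = (z * s) * (z * s) := by
        calc z * (z * (s * s)) = z * (z * s) * s := by group
          _ = z * (s * z) * s := by rw [h7]
          _ = _ := by group
      _ = 1 := h6
  have h8 : z = 1 := by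
    have h9 := h3 z hz
    rw [pow_succ, h5, one_mul] at h9
    exact h9
  rw [h8, one_mul] at h4
  rwa [mul_inv_eq_iff_eq_mul] at h4

/-- A group of order 4 and exponent 2 has two generators. -/
theorem exists_gens {V : Subgroup H} (hV : Nat.card V = 4) (hV2 : ∀ x ∈ V, x * x = 1) :
    ∃ a ∈ V, ∃ b ∈ V, a ≠ 1 ∧ b ≠ 1 ∧ a ≠ b ∧ a * b = b * a ∧
      ∀ v ∈ V, v = 1 ∨ v = a ∨ v = b ∨ v = a * b := by
  have hfin : Finite V := Nat.finite_of_card_ne_zero (by rw [hV]; norm_num)
  have hfV : (V : Set H).Finite := Set.toFinite _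
  have hc : (V : Set H).ncard = 4 := by
    rw [← hV]
    exact (Nat.card_coe_set_eq _).symm
  obtain ⟨a, ha, ha1⟩ := Set.exists_mem_notMem_of_ncard_lt_ncard (s := {(1 : H)})
    (t := (V : Set H)) (by rw [Set.ncard_singleton, hc]; norm_num)
  rw [Set.mem_singleton_iff] at ha1
  obtain ⟨b, hb, hb1⟩ := Set.exists_mem_notMem_of_ncard_lt_ncard (s := {(1 : H), a})
    (t := (V : Set H)) (lt_of_le_of_lt (Set.ncard_insert_le _ _)
      (by rw [Set.ncard_singleton, hc]; norm_num))
  rw [Set.mem_insert_iff, Set.mem_singleton_iff, not_or] at hb1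
  have hab : a * b = b * a := by
    have h1 := hV2 (a * b) (V.mul_mem ha hb)
    have h2 := hV2 a ha
    have h3 := hV2 b hb
    calc a * b = (b * b) * (a * b) * (a * a) := by rw [h2, h3]; group
      _ = b * ((b * a) * (b * a)) * a := by group
      _ = b * a := by
        rw [hV2 (b * a) (V.mul_mem hb ha), mul_one]
  have hab1 : a * b ≠ 1 := by
    intro h
    apply hb1.2
    have h2 := hV2 a ha
    calc b = a * (a * b) := by rw [← mul_assoc, h2, one_mul]
      _ = a := by rw [h, mul_one]
  refine ⟨a, ha, b, hb, ha1, hb1.1, fun h => hb1.2 h.symm, hab, ?_⟩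
  have hsub : ({1, a, b, a * b} : Set H) ⊆ (V : Set H) := by
    intro v hv
    rcases hv with rfl | rfl | rfl | hv
    · exact V.one_mem
    · exact ha
    · exact hb
    · rw [Set.mem_singleton_iff] at hv
      rw [hv]
      exact V.mul_mem ha hb
  have hcard : ({1, a, b, a * b} : Set H).ncard = 4 := by
    rw [Set.ncard_insert_of_notMem, Set.ncard_insert_of_notMem, Set.ncard_insert_of_notMem,
      Set.ncard_singleton]
    · rw [Set.mem_singleton_iff]
      intro h
      exact ha1 (mul_eq_right.1 h.symm)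
    · rw [Set.mem_insert_iff, Set.mem_singleton_iff]
      rintro (h | h)
      · exact hb1.2 h.symm
      · exact hb1.1 (mul_eq_left.1 h.symm)
    · rw [Set.mem_insert_iff, Set.mem_insert_iff, Set.mem_singleton_iff]
      rintro (h | h | h)
      · exact ha1 h.symm
      · exact hb1.1 h.symm
      · exact hab1 h.symm
  have heq := Set.eq_of_subset_of_ncard_le hsub (by rw [hc, hcard]) hfV
  intro v hv
  have hv' : v ∈ ({1, a, b, a * b} : Set H) := heq ▸ hv
  simpa using hv'

end lift

/-- **Lemma T2.** The centralizer of a four-subgroup of `PSU₃(q)`, `q` odd. -/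
theorem psu3_four (hF : Fintype.card F = q ^ 2) (h2 : (2 : F) ≠ 0)
    (V : Subgroup (PSU 3 F q)) (hV : Nat.card V = 4) (hV2 : ∀ x ∈ V, x * x = 1) :
    Nat.card (centralizer (V : Set (PSU 3 F q))) * Nat.gcd 3 (q + 1) = (q + 1) ^ 2 := by
  have hc3 : ∀ z ∈ center (SU 3 F q), z ^ 3 = 1 := fun z hz => center_cube hF hz
  obtain ⟨a, ha, b, hb, ha1, hb1, hab, hcomm, hall⟩ := exists_gens hV hV2
  obtain ⟨s, hs, hs2⟩ := exists_lift hc3 (hV2 a ha)
  obtain ⟨t, ht, ht2⟩ := exists_lift hc3 (hV2 b hb)
  have hst : s * t = t * s := comm_lift hc3 ht2 (by rw [hs, ht, hcomm])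
  have hs1 : s ≠ 1 := by
    rintro rfl
    exact ha1 (by rw [← hs, map_one])
  have ht1 : t ≠ 1 := by
    rintro rfl
    exact hb1 (by rw [← ht, map_one])
  have hne : s ≠ t := by
    rintro rfl
    exact hab (hs.symm.trans ht)
  have key : ∀ g : SU 3 F q, g ∈ (centralizer (V : Set (PSU 3 F q))).comap
      (QuotientGroup.mk' (center (SU 3 F q))) ↔ (g * s = s * g ∧ g * t = t * g) := by
    intro g
    rw [mem_comap, mem_centralizer_iff]
    constructor
    · intro h
      exact ⟨comm_lift hc3 hs2 (by rw [hs]; exact (h a ha).symm),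
        comm_lift hc3 ht2 (by rw [ht]; exact (h b hb).symm)⟩
    · rintro ⟨h1, h3⟩ v hv
      have e1 : a * QuotientGroup.mk' (center (SU 3 F q)) g =
          QuotientGroup.mk' (center (SU 3 F q)) g * a := by
        rw [← hs, ← map_mul, ← map_mul, h1]
      have e2 : b * QuotientGroup.mk' (center (SU 3 F q)) g =
          QuotientGroup.mk' (center (SU 3 F q)) g * b := by
        rw [← ht, ← map_mul, ← map_mul, h3]
      rcases hall v hv with rfl | rfl | rfl | rfl
      · rw [one_mul, mul_one]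
      · exact e1
      · exact e2
      · rw [mul_assoc, e2, ← mul_assoc, e1, mul_assoc]
  have h1 : Nat.card ↥((centralizer (V : Set (PSU 3 F q))).comap
      (QuotientGroup.mk' (center (SU 3 F q)))) = (q + 1) ^ 2 := by
    rw [← card_cent hF h2 hs2 ht2 hst hs1 ht1 hne]
    exact Nat.card_congr (Equiv.subtypeEquivRight key)
  have h3 : ((centralizer (V : Set (PSU 3 F q))).comap
      (QuotientGroup.mk' (center (SU 3 F q)))).index = (centralizer (V : Set (PSU 3 F q))).index :=
    index_comap_of_surjective _ (QuotientGroup.mk'_surjective _)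
  have h4 := card_mul_index ((centralizer (V : Set (PSU 3 F q))).comap
      (QuotientGroup.mk' (center (SU 3 F q))))
  have h5 := card_mul_index (centralizer (V : Set (PSU 3 F q)))
  have h6 := card_eq_card_quotient_mul_card_subgroup (center (SU 3 F q))
  have h7 := Cfsg.Agent.S0279.result hF 3 le_rfl
  rw [h7] at h6
  have hfin : Finite (PSU 3 F q) := inferInstance
  have h8 : 0 < (centralizer (V : Set (PSU 3 F q))).index := Nat.pos_of_ne_zero index_ne_zero_of_finite
  rw [← h1]
  apply Nat.eq_of_mul_eq_mul_right h8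
  rw [← h3, h4, h6, h3]
  have h9 : Nat.card (SU 3 F q ⧸ center (SU 3 F q)) = Nat.card (PSU 3 F q) := rfl
  rw [h9, ← h5]
  ring

end su

end Cfsg.Agent.H269.PsuFour
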