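import Cfsg.Agent.TwoGenCore.U3
import Cfsg.Agent.H435.Elts
import Cfsg.Agent.ClassicalGeometry.HermOrtho

/-!
# Centralizers of four-subgroups of `PSU₃(q)`, `q` odd (S3574, lemma T2, for helper5)
-/

set_option autoImplicit false

namespace Cfsg.Agent.H269.PsuFour

open Cfsg Subgroup Matrix

section mat

variable {F : Type*} [Field F]

/-- The nine cofactor equations of an involution of determinant one. -/
theorem adj_eq {s : Matrix (Fin 3) (Fin 3) F} (hs : s * s = 1) (hd : s.det = 1) :
    s.adjugate = s := by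
  have h1 : s.adjugate * s = 1 := by rw [adjugate_mul, hd, one_smul]
  calc s.adjugate = s.adjugate * (s * s) := by rw [hs, mul_one]
    _ = s := by rw [← mul_assoc, h1, one_mul]

/-- An involution `≠ 1` of determinant one has trace `-1`. -/
theorem trace_eq {s : Matrix (Fin 3) (Fin 3) F} (hs : s * s = 1) (hd : s.det = 1)
    (h1 : s ≠ 1) : s 0 0 + s 1 1 + s 2 2 = -1 := by
  have ha := adj_eq hs hd
  have hA : ∀ i j, s.adjugate i j = s i j := fun i j => congrFun (congrFun ha i) j
  have hS : ∀ i j, (s * s) i j = (1 : Matrix (Fin 3) (Fin 3) F) i j := fun i j =>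
    congrFun (congrFun hs i) j
  have a00 := hA 0 0
  have a01 := hA 0 1
  have a02 := hA 0 2
  have a10 := hA 1 0
  have a11 := hA 1 1
  have a12 := hA 1 2
  have a20 := hA 2 0
  have a21 := hA 2 1
  have a22 := hA 2 2
  have s00 := hS 0 0
  have s01 := hS 0 1
  have s02 := hS 0 2
  have s10 := hS 1 0
  have s11 := hS 1 1
  have s12 := hS 1 2
  have s20 := hS 2 0
  have s21 := hS 2 1
  have s22 := hS 2 2
  simp only [adjugate_fin_three, Matrix.mul_apply, Fin.sum_univ_three, Matrix.one_apply,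
    Matrix.of_apply, Matrix.cons_val', Matrix.cons_val_zero, Matrix.cons_val_one,
    Matrix.cons_val_fin_one, Matrix.cons_val] at a00 a01 a02 a10 a11 a12 a20 a21 a22 s00 s01 s02 s10 s11 s12 s20 s21 s22
  simp only [Fin.isValue, Fin.reduceEq, if_true, if_false] at s00 s01 s02 s10 s11 s12 s20 s21 s22
  by_contra hcon
  have ht : 1 + (s 0 0 + s 1 1 + s 2 2) ≠ 0 := fun h => hcon (by linear_combination h)
  have e01 : s 0 1 = 0 := by
    refine (mul_eq_zero.1 (?_ : (1 + (s 0 0 + s 1 1 + s 2 2)) * s 0 1 = 0)).resolve_left ht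
    linear_combination s01 - a01
  have e02 : s 0 2 = 0 := by
    refine (mul_eq_zero.1 (?_ : (1 + (s 0 0 + s 1 1 + s 2 2)) * s 0 2 = 0)).resolve_left ht
    linear_combination s02 - a02
  have e10 : s 1 0 = 0 := by
    refine (mul_eq_zero.1 (?_ : (1 + (s 0 0 + s 1 1 + s 2 2)) * s 1 0 = 0)).resolve_left ht
    linear_combination s10 - a10
  have e12 : s 1 2 = 0 := by
    refine (mul_eq_zero.1 (?_ : (1 + (s 0 0 + s 1 1 + s 2 2)) * s 1 2 = 0)).resolve_left ht
    linear_combination s12 - a12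
  have e20 : s 2 0 = 0 := by
    refine (mul_eq_zero.1 (?_ : (1 + (s 0 0 + s 1 1 + s 2 2)) * s 2 0 = 0)).resolve_left ht
    linear_combination s20 - a20
  have e21 : s 2 1 = 0 := by
    refine (mul_eq_zero.1 (?_ : (1 + (s 0 0 + s 1 1 + s 2 2)) * s 2 1 = 0)).resolve_left ht
    linear_combination s21 - a21
  have e11 : s 1 1 = s 0 0 := by
    refine sub_eq_zero.1 ((mul_eq_zero.1 (?_ : (1 + (s 0 0 + s 1 1 + s 2 2)) * (s 1 1 - s 0 0) = 0)).resolve_left ht)
    linear_combination s11 - s00 + a00 - a11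
  have e22 : s 2 2 = s 0 0 := by
    refine sub_eq_zero.1 ((mul_eq_zero.1 (?_ : (1 + (s 0 0 + s 1 1 + s 2 2)) * (s 2 2 - s 0 0) = 0)).resolve_left ht)
    linear_combination s22 - s00 + a00 - a22
  have e00 : s 0 0 = 1 := by
    linear_combination s00 - a00 - s 1 0 * e01 - s 2 0 * e02 - s 2 1 * e12 + s 2 2 * e11 +
      s 0 0 * e22
  apply h1
  ext i j
  fin_cases i <;> fin_cases j <;> simp [e00, e01, e02, e10, e11, e12, e20, e21, e22]

set_option maxHeartbeats 2000000 in
/-- The `2 × 2` minors of `1 + s` vanish. -/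
theorem minor_eq {s : Matrix (Fin 3) (Fin 3) F} (hs : s * s = 1) (hd : s.det = 1)
    (h1 : s ≠ 1) (i j k l : Fin 3) : (1 + s) i j * (1 + s) k l = (1 + s) i l * (1 + s) k j := by
  have ht := trace_eq hs hd h1
  have ha := adj_eq hs hd
  have hA : ∀ i j, s.adjugate i j = s i j := fun i j => congrFun (congrFun ha i) j
  have a00 := hA 0 0
  have a01 := hA 0 1
  have a02 := hA 0 2
  have a10 := hA 1 0
  have a11 := hA 1 1
  have a12 := hA 1 2
  have a20 := hA 2 0
  have a21 := hA 2 1
  have a22 := hA 2 2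
  clear hA ha h1 hs hd
  simp only [adjugate_fin_three, Matrix.of_apply, Matrix.cons_val', Matrix.cons_val_zero,
    Matrix.cons_val_one, Matrix.cons_val_fin_one, Matrix.cons_val]
    at a00 a01 a02 a10 a11 a12 a20 a21 a22
  fin_cases i <;> fin_cases j <;> fin_cases k <;> fin_cases l <;>
    simp only [Matrix.add_apply, Matrix.one_apply, Fin.zero_eta, Fin.mk_one, Fin.reduceFinMk,
      Fin.isValue, Fin.reduceEq, if_true, if_false] <;>
    first
      | ring1
      | linear_combination a00 + ht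
      | linear_combination a11 + ht
      | linear_combination a22 + ht
      | linear_combination -a00 - ht
      | linear_combination -a11 - ht
      | linear_combination -a22 - ht
      | linear_combination a01
      | linear_combination a02
      | linear_combination a10
      | linear_combination a12
      | linear_combination a20
      | linear_combination a21
      | linear_combination -a01
      | linear_combination -a02
      | linear_combination -a10
      | linear_combination -a12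
      | linear_combination -a20
      | linear_combination -a21

/-- An involution of determinant one fixes a vector `x` and `s z + z` is a multiple of `x`. -/
theorem exists_axis (h2 : (2 : F) ≠ 0) {s : Matrix (Fin 3) (Fin 3) F} (hs : s * s = 1)
    (hd : s.det = 1) (h1 : s ≠ 1) : ∃ x : Fin 3 → F, x ≠ 0 ∧ s *ᵥ x = x ∧
      ∀ z : Fin 3 → F, ∃ c : F, s *ᵥ z = -z + c • x := by
  obtain ⟨i0, j0, h0⟩ : ∃ i j, (1 + s) i j ≠ 0 := by
    by_contra hcon
    push Not at hcon
    have h3 : 1 + s = 0 := by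
      ext i j
      exact hcon i j
    have h4 := trace_eq hs hd h1
    have e : ∀ i, s i i = -1 := fun i => by
      have := hcon i i
      rw [Matrix.add_apply, Matrix.one_apply_eq] at this
      linear_combination this
    rw [e, e, e] at h4
    apply h2
    linear_combination -h4
  let x : Fin 3 → F := fun i => (1 + s) i j0
  have hx : x = (1 + s) *ᵥ (Pi.single j0 1) := by
    rw [Matrix.mulVec_single_one]
    rfl
  refine ⟨x, fun h => h0 (congrFun h i0), ?_, ?_⟩
  · rw [hx, Matrix.mulVec_mulVec, mul_add, mul_one, hs, add_comm]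
  · intro z
    refine ⟨((1 + s) *ᵥ z) i0 / (1 + s) i0 j0, ?_⟩
    have h3 : (1 + s) *ᵥ z = (((1 + s) *ᵥ z) i0 / (1 + s) i0 j0) • x := by
      ext i
      rw [Pi.smul_apply, smul_eq_mul, div_mul_eq_mul_div, eq_div_iff h0]
      change ((1 + s) *ᵥ z) i * (1 + s) i0 j0 = ((1 + s) *ᵥ z) i0 * (1 + s) i j0
      simp only [Matrix.mulVec, dotProduct]
      rw [Finset.sum_mul, Finset.sum_mul]
      refine Finset.sum_congr rfl fun j _ => ?_
      have := minor_eq hs hd h1 i j i0 j0
      linear_combination z j * this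
    rw [← h3, Matrix.add_mulVec, Matrix.one_mulVec]
    abel

end mat

section su

open Cfsg.Agent.TwoGenCore.U3 Cfsg.Agent.LieClassical.GUOrder Cfsg.Agent.LieClassical.SUBasic

variable {F : Type*} [Field F] [Fintype F] {q : ℕ}

/-- Every involution of `SU₃(q)`, `q` odd, is a `T x`. -/
theorem exists_T (hF : Fintype.card F = q ^ 2) (h2 : (2 : F) ≠ 0) {s : SU 3 F q} (hs : s * s = 1)
    (h1 : s ≠ 1) : ∃ x : Fin 3 → F, hermForm 3 F q x x ≠ 0 ∧ s = T hF x := by
  obtain ⟨x, hx0, hx, hz⟩ := exists_axis h2 (s := s.1.1) (congrArg (fun g : SU 3 F q => g.1.1) hs)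
    s.1.2 (fun h => h1 (Subtype.ext (Subtype.ext h)))
  have hx' : act s x = x := hx
  have key : ∀ z c, act s z = -z + c • x → c * hermForm 3 F q x x = 2 * hermForm 3 F q z x := by
    intro z c hc
    have h3 := herm_act s z x
    rw [hc, hx', herm_add_left hF, herm_smul_left hF, ← neg_one_smul F z, herm_smul_left hF] at h3
    linear_combination h3
  have hxx : hermForm 3 F q x x ≠ 0 := by
    intro h0
    apply hx0
    refine Cfsg.Agent.LieClassical.HermBasic.herm_nondeg hF fun z => ?_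
    obtain ⟨c, hc⟩ := hz z
    have h3 := key z c hc
    rw [h0, mul_zero] at h3
    have h4 : hermForm 3 F q z x = 0 := (mul_eq_zero.1 h3.symm).resolve_left h2
    exact Cfsg.Agent.LieClassical.HermBasic.herm_eq_zero_swap hF h4
  refine ⟨x, hxx, act_ext fun z => ?_⟩
  obtain ⟨c, hc⟩ := hz z
  rw [act_T hF hxx, ← key z c hc, mul_div_cancel_right₀ _ hxx]
  exact hc

/-- The axis of `T x`. -/
theorem mem_axis (hF : Fintype.card F = q ^ 2) (h2 : (2 : F) ≠ 0) {x v : Fin 3 → F}
    (hx : hermForm 3 F q x x ≠ 0) (hv : act (T hF x) v = v) : ∃ c : F, v = c • x := by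
  rw [act_T hF hx] at hv
  refine ⟨2⁻¹ * (2 * hermForm 3 F q v x / hermForm 3 F q x x), ?_⟩
  rw [mul_smul, eq_inv_smul_iff₀ h2]
  calc (2 : F) • v = v + v := two_smul F v
    _ = v + (-v + (2 * hermForm 3 F q v x / hermForm 3 F q x x) • x) := by rw [hv]
    _ = _ := by abel

omit [Fintype F] in
theorem ne_zero_of_aniso {x : Fin 3 → F}
    (hx : hermForm 3 F q x x ≠ 0) : x ≠ 0 := by
  rintro rfl
  exact hx (Cfsg.Agent.LieClassical.HermBasic.herm_zero_left _)

/-- If `g` commutes with `T x` then `x` is an eigenvector of `g`. -/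
theorem eig_of_comm (hF : Fintype.card F = q ^ 2) (h2 : (2 : F) ≠ 0) {x : Fin 3 → F}
    (hx : hermForm 3 F q x x ≠ 0) {g : SU 3 F q} (hg : g * T hF x = T hF x * g) :
    ∃ c : F, act g x = c • x := by
  apply mem_axis hF h2 hx
  rw [← act_mul, ← hg, act_mul, act_T_self hF hx]

/-- Commuting involutions have orthogonal axes. -/
theorem orth (hF : Fintype.card F = q ^ 2) (h2 : (2 : F) ≠ 0) {x y : Fin 3 → F}
    (hx : hermForm 3 F q x x ≠ 0) (hy : hermForm 3 F q y y ≠ 0)
    (hc : T hF x * T hF y = T hF y * T hF x) (hne : T hF x ≠ T hF y) : hermForm 3 F q y x = 0 := by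
  obtain ⟨c, h1⟩ := eig_of_comm hF h2 hy hc
  rw [act_T hF hx] at h1
  by_contra h0
  apply hne
  have h3 : (c + 1) • y = (2 * hermForm 3 F q y x / hermForm 3 F q x x) • x := by
    rw [add_smul, one_smul, ← h1]
    abel
  have h4 : 2 * hermForm 3 F q y x / hermForm 3 F q x x ≠ 0 :=
    div_ne_zero (mul_ne_zero h2 h0) hx
  have h5 : c + 1 ≠ 0 := by
    intro h5
    rw [h5, zero_smul] at h3
    exact (smul_ne_zero h4 (ne_zero_of_aniso hx)) h3.symm
  rw [← T_smul hF h4 hx, ← h3, T_smul hF h5 hy]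

/-- Scaling to a unit vector. -/
theorem exists_unit (hF : Fintype.card F = q ^ 2) {x : Fin 3 → F} (hx : hermForm 3 F q x x ≠ 0) :
    ∃ c : F, c ≠ 0 ∧ hermForm 3 F q (c • x) (c • x) = 1 := by
  obtain ⟨a, ha⟩ := Cfsg.Agent.LieClassical.HermBasic.exists_norm_eq hF
    (c := (hermForm 3 F q x x)⁻¹)
    (by rw [inv_pow, Cfsg.Agent.LieClassical.HermBasic.herm_self_pow hF])
  have h1 : hermForm 3 F q (a • x) (a • x) = 1 := by
    rw [Cfsg.Agent.LieClassical.HermBasic.herm_smul_left,
      Cfsg.Agent.LieClassical.HermBasic.herm_smul_right, ← mul_assoc, ha, inv_mul_cancel₀ hx]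
  refine ⟨a, ?_, h1⟩
  rintro rfl
  rw [zero_smul, Cfsg.Agent.LieClassical.HermBasic.herm_zero_left] at h1
  exact zero_ne_one h1

/-- An orthonormal frame adapted to two commuting involutions. -/
theorem exists_frame (hF : Fintype.card F = q ^ 2) (h2 : (2 : F) ≠ 0) {s t : SU 3 F q}
    (hs : s * s = 1) (ht : t * t = 1) (hst : s * t = t * s) (hs1 : s ≠ 1) (ht1 : t ≠ 1)
    (hne : s ≠ t) : ∃ b : Fin 3 → (Fin 3 → F),
      (∀ i j, hermForm 3 F q (b i) (b j) = if i = j then 1 else 0) ∧
        s = T hF (b 0) ∧ t = T hF (b 1) ∧ s * t = T hF (b 2) := by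
  obtain ⟨x, hx, hsx⟩ := exists_T hF h2 hs hs1
  obtain ⟨y, hy, hty⟩ := exists_T hF h2 ht ht1
  have hst2 : (s * t) * (s * t) = 1 := by
    calc (s * t) * (s * t) = s * (t * s) * t := by group
      _ = (s * s) * (t * t) := by rw [← hst]; group
      _ = 1 := by rw [hs, ht, one_mul]
  have hst1 : s * t ≠ 1 := by
    intro h
    apply hne
    rw [mul_eq_one_iff_eq_inv] at h
    rw [h, inv_eq_of_mul_eq_one_left ht]
  obtain ⟨z, hz, hstz⟩ := exists_T hF h2 hst2 hst1
  have hyx : hermForm 3 F q y x = 0 := orth hF h2 hx hy (by rw [← hsx, ← hty, hst])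
    (by rw [← hsx, ← hty]; exact hne)
  have hzx : hermForm 3 F q z x = 0 := by
    refine orth hF h2 hx hz ?_ ?_
    · rw [← hsx, ← hstz, mul_assoc s t s, ← hst]
    · rw [← hsx, ← hstz]
      intro h
      exact ht1 (mul_eq_left.1 h.symm)
  have hzy : hermForm 3 F q z y = 0 := by
    refine orth hF h2 hy hz ?_ ?_
    · rw [← hty, ← hstz, ← mul_assoc, ← hst]
    · rw [← hty, ← hstz]
      intro h
      exact hs1 (mul_eq_right.1 h.symm)
  obtain ⟨a, ha0, ha⟩ := exists_unit hF hx
  obtain ⟨b, hb0, hb⟩ := exists_unit hF hy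
  obtain ⟨c, hc0, hc⟩ := exists_unit hF hz
  have sw : ∀ {u v : Fin 3 → F}, hermForm 3 F q u v = 0 → hermForm 3 F q v u = 0 := fun h =>
    Cfsg.Agent.LieClassical.HermBasic.herm_eq_zero_swap hF h
  have sm : ∀ {u v : Fin 3 → F} (α β : F), hermForm 3 F q u v = 0 →
      hermForm 3 F q (α • u) (β • v) = 0 := fun α β h => by
    rw [herm_smul_left hF, herm_smul_right hF, h, mul_zero, mul_zero]
  refine ⟨![a • x, b • y, c • z], ?_, ?_, ?_, ?_⟩
  · intro i j
    fin_cases i <;> fin_cases j
    · exact ha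
    · exact sm _ _ (sw hyx)
    · exact sm _ _ (sw hzx)
    · exact sm _ _ hyx
    · exact hb
    · exact sm _ _ (sw hzy)
    · exact sm _ _ hzx
    · exact sm _ _ hzy
    · exact hc
  · rw [hsx]
    exact (T_smul hF ha0 hx).symm
  · rw [hty]
    exact (T_smul hF hb0 hy).symm
  · rw [hstz]
    exact (T_smul hF hc0 hz).symm

end su

end Cfsg.Agent.H269.PsuFour
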