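import Mathlib
import Cfsg.Prelude.Def_SolvableStructure
import Cfsg.Agent.H269.Eigen
import Cfsg.Agent.H269.StrongFixed
import Cfsg.Agent.Characters.CNBasic
import Cfsg.Agent.SolvableStructure.SupersolvableBasic

/-!
# Supersolvability from a normal `q`-subgroup all of whose subgroups of one order are normal
-/

set_option autoImplicit false

namespace Cfsg.Agent.H269

open Subgroup
open scoped commutatorElement

universe u

/-- The part of order prime to `q` of an element as a power which does not move images of order prime to `q`. -/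
theorem exists_coprime_pow {G : Type*} [Group G] [Finite G] {q : ℕ} [hq : Fact q.Prime] (w : G) :
    ∃ t : ℕ, (orderOf (w ^ t)).Coprime q ∧
      ∀ {H : Type u} [Group H] (f : G →* H), (orderOf (f w)).Coprime q → f (w ^ t) = f w := by
  obtain ⟨c, m, hm, hcm⟩ := Nat.exists_eq_pow_mul_and_not_dvd (orderOf_pos w).ne' q hq.out.ne_one
  have hmc : m.Coprime q := ((Nat.Prime.coprime_iff_not_dvd hq.out).2 hm).symm
  have hcop : (q ^ c).Coprime m := (Nat.Coprime.pow_right c hmc).symm
  obtain ⟨t, ht⟩ := Nat.chineseRemainder hcop 0 1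
  have ht0 : q ^ c ∣ t := (Nat.modEq_zero_iff_dvd).1 ht.1
  have ht1 : t ≡ 1 [MOD m] := ht.2
  refine ⟨t, ?_, ?_⟩
  · apply Nat.Coprime.coprime_dvd_left _ hmc
    apply orderOf_dvd_of_pow_eq_one
    rw [← pow_mul]
    apply orderOf_dvd_iff_pow_eq_one.1
    rw [hcm]
    exact Nat.mul_dvd_mul_right ht0 m
  · intro H _ f hf
    have h1 : orderOf (f w) ∣ m := by
      have h2 := orderOf_map_dvd f w
      rw [hcm] at h2
      exact (Nat.Coprime.pow_right c hf).dvd_of_dvd_mul_left h2
    have h2 : t ≡ 1 [MOD orderOf (f w)] := ht1.of_dvd h1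
    rw [map_pow]
    have h3 := pow_eq_pow_iff_modEq.2 h2
    rw [h3, pow_one]

/-- The subgroup generated by all commutators and all `n`-th powers. -/
def powComm (G : Type*) [Group G] (n : ℕ) : Subgroup G :=
  closure ({x | ∃ a b : G, x = ⁅a, b⁆} ∪ {x | ∃ a : G, x = a ^ n})

theorem commutator_mem_powComm {G : Type*} [Group G] (n : ℕ) (a b : G) : ⁅a, b⁆ ∈ powComm G n :=
  subset_closure (Or.inl ⟨a, b, rfl⟩)

theorem pow_mem_powComm {G : Type*} [Group G] (n : ℕ) (a : G) : a ^ n ∈ powComm G n :=
  subset_closure (Or.inr ⟨a, rfl⟩)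

theorem powComm_normal {G : Type*} [Group G] (n : ℕ) : (powComm G n).Normal := by
  refine ⟨fun x hx g => ?_⟩
  have h : powComm G n ≤ (powComm G n).comap (MulAut.conj g).toMonoidHom := by
    rw [powComm, closure_le]
    rintro y (⟨a, b, rfl⟩ | ⟨a, rfl⟩)
    · show (MulAut.conj g).toMonoidHom ⁅a, b⁆ ∈ powComm G n
      rw [map_commutatorElement]
      exact commutator_mem_powComm n _ _
    · show (MulAut.conj g).toMonoidHom (a ^ n) ∈ powComm G n
      rw [map_pow]
      exact pow_mem_powComm n _
  exact h hx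

theorem powComm_map {G H : Type*} [Group G] [Group H] (n : ℕ) (f : G →* H) (hf : Function.Surjective f) :
    (powComm G n).map f = powComm H n := by
  apply le_antisymm
  · rw [map_le_iff_le_comap, powComm, closure_le]
    rintro y (⟨a, b, rfl⟩ | ⟨a, rfl⟩)
    · show f ⁅a, b⁆ ∈ powComm H n
      rw [map_commutatorElement]
      exact commutator_mem_powComm n _ _
    · show f (a ^ n) ∈ powComm H n
      rw [map_pow]
      exact pow_mem_powComm n _
  · rw [powComm, closure_le]
    rintro y (⟨a, b, rfl⟩ | ⟨a, rfl⟩)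
    · obtain ⟨a, rfl⟩ := hf a
      obtain ⟨b, rfl⟩ := hf b
      exact ⟨⁅a, b⁆, commutator_mem_powComm n a b, map_commutatorElement f a b⟩
    · obtain ⟨a, rfl⟩ := hf a
      exact ⟨a ^ n, pow_mem_powComm n a, map_pow f a n⟩

/-- **Extension theorem.** `Q` a normal `q`-subgroup of the finite group `G` with `G / Q` supersolvable such that
all `q'`-elements in the subgroup generated by the commutators and `(q - 1)`-th powers centralize `Q`. Then `G` is
supersolvable. -/
theorem isSupersolvable_of_powComm {q : ℕ} [hq : Fact q.Prime] : ∀ (n : ℕ) {G : Type u} [Group G] [Finite G]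
    (Q : Subgroup G) [Q.Normal], Nat.card G = n → IsPGroup q Q →
    (∀ x ∈ powComm G (q - 1), (orderOf x).Coprime q → ∀ r ∈ Q, x * r = r * x) →
    Cfsg.IsSupersolvable (G ⧸ Q) → Cfsg.IsSupersolvable G := by
  intro n
  induction n using Nat.strong_induction_on with
  | _ n ih =>
  intro G _ _ Q hQn hcard hQ hcent hss
  by_cases hbot : Q = ⊥
  · subst hbot
    exact SolvableStructure.SupersolvableBasic.of_mulEquiv hss QuotientGroup.quotientBot
  · set G₀ := powComm G (q - 1) with hG₀
    have hG₀n : G₀.Normal := powComm_normal _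
    -- a Sylow `q`-subgroup of `G₀`
    obtain ⟨S⟩ : Nonempty (Sylow q G₀) := inferInstance
    let S' : Subgroup G := (S : Subgroup G₀).map G₀.subtype
    have hS' : IsPGroup q S' := S.isPGroup'.map _
    have hSQ : IsPGroup q (S' ⊔ Q : Subgroup G) := hS'.to_sup_of_normal_right hQ
    obtain ⟨w, hwQ, hw1, hw⟩ := Characters.CNBasic.exists_mem_center_of_normal (S' ⊔ Q : Subgroup G) hSQ Q hQ hbot
      (fun t _ d hd => hQn.conj_mem d hd t)
    -- `w` is centralized by `G₀`
    have hwG₀ : G₀ ≤ centralizer {w} := by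
      apply le_of_coprime_of_relIndex (p := q) (S := S')
      · intro s hs
        rw [mem_centralizer_singleton_iff]
        exact hw s (le_sup_left (b := Q) hs)
      · have h1 : S'.relIndex G₀ = (S : Subgroup G₀).index := by
          rw [relIndex, subgroupOf, comap_map_eq_self_of_injective (Subgroup.subtype_injective _)]
        rw [h1]
        exact S.not_dvd_index
      · intro x hx hxq
        rw [mem_centralizer_singleton_iff]
        exact hcent x hx hxq w hwQ
    -- the normal subgroup
    let N₁ : Subgroup G := Q ⊓ centralizer (G₀ : Set G) ⊓ centralizer (Q : Set G)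
    have hN₁n : N₁.Normal := by
      have h1 : (centralizer (G₀ : Set G)).Normal := inferInstance
      have h2 : (centralizer (Q : Set G)).Normal := inferInstance
      infer_instance
    have hN₁ : ∀ x, x ∈ N₁ ↔ (x ∈ Q ∧ x ∈ centralizer (G₀ : Set G)) ∧ x ∈ centralizer (Q : Set G) := fun x => by
      rw [mem_inf, mem_inf]
    have hab : ∀ a ∈ N₁, ∀ b ∈ N₁, a * b = b * a := by
      intro a ha b hb
      have := mem_centralizer_iff.1 ((hN₁ a).1 ha).2 b ((hN₁ b).1 hb).1.1
      exact this.symm
    let N₂ : Subgroup G :=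
      { carrier := {x | x ∈ N₁ ∧ x ^ q = 1}
        one_mem' := ⟨one_mem _, one_pow _⟩
        mul_mem' := by
          rintro x y ⟨hx, hx'⟩ ⟨hy, hy'⟩
          refine ⟨mul_mem hx hy, ?_⟩
          have hc : Commute x y := hab x hx y hy
          rw [hc.mul_pow, hx', hy', one_mul]
        inv_mem' := by
          rintro x ⟨hx, hx'⟩
          exact ⟨inv_mem hx, by rw [inv_pow, hx', inv_one]⟩ }
    have hN₂ : ∀ x, x ∈ N₂ ↔ x ∈ N₁ ∧ x ^ q = 1 := fun x => Iff.rfl
    have hN₂n : N₂.Normal := by
      refine ⟨fun x hx g => ?_⟩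
      obtain ⟨h1, h2⟩ := (hN₂ x).1 hx
      exact (hN₂ _).2 ⟨hN₁n.conj_mem x h1 g, by rw [conj_pow, h2, mul_one, mul_inv_cancel]⟩
    have hwN₁ : w ∈ N₁ := by
      refine (hN₁ w).2 ⟨⟨hwQ, ?_⟩, ?_⟩
      · rw [mem_centralizer_iff]
        intro g hg
        exact (mem_centralizer_singleton_iff.1 (hwG₀ hg))
      · rw [mem_centralizer_iff]
        intro r hr
        exact hw r (le_sup_right (a := S') hr)
    have hN₂ne : N₂ ≠ ⊥ := by
      intro h
      obtain ⟨k, hk⟩ := hQ ⟨w, hwQ⟩
      have hk' : w ^ q ^ k = 1 := by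
        have := congrArg (Subtype.val) hk
        simpa using this
      -- the last nontrivial power
      obtain ⟨j, hj1, hj2⟩ : ∃ j, w ^ q ^ j ≠ 1 ∧ w ^ q ^ (j + 1) = 1 := by
        clear hk
        induction k with
        | zero => rw [pow_zero, pow_one] at hk'; exact absurd hk' hw1
        | succ k ihk =>
          by_cases h0 : w ^ q ^ k = 1
          · exact ihk h0
          · exact ⟨k, h0, hk'⟩
      have h1 : w ^ q ^ j ∈ N₂ := (hN₂ _).2 ⟨pow_mem hwN₁ _, by rw [← pow_mul, ← pow_succ]; exact hj2⟩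
      rw [h, mem_bot] at h1
      exact hj1 h1
    obtain ⟨M, hMN, hMn, hMq⟩ := exists_normal_of_order (q := q) _ N₂ hN₂n rfl hN₂ne
      (fun a ha b hb => hab a ha.1 b hb.1) (fun a ha => ha.2)
      (fun z hz a b => (mem_centralizer_iff.1 ((hN₁ z).1 hz.1).1.2 _ (commutator_mem_powComm (q - 1) a b)))
      (fun z hz a => (mem_centralizer_iff.1 ((hN₁ z).1 hz.1).1.2 _ (pow_mem_powComm (q - 1) a)))
    have hMQ : M ≤ Q := fun x hx => ((hN₁ x).1 (hMN hx).1).1.1
    have hMc : IsCyclic M := isCyclic_of_prime_card hMq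
    -- pass to the quotient
    have hlt : Nat.card (G ⧸ M) < n := by
      have h1 := M.card_mul_index
      rw [hcard, hMq] at h1
      have h2 : 0 < M.index := Nat.pos_of_ne_zero (FiniteIndex.index_ne_zero)
      have h3 : Nat.card (G ⧸ M) = M.index := rfl
      rw [h3, ← h1]
      have := hq.out.two_le
      nlinarith
    let Q' : Subgroup (G ⧸ M) := Q.map (QuotientGroup.mk' M)
    have hQ'n : Q'.Normal := hQn.map _ (QuotientGroup.mk'_surjective M)
    have hQ' : IsPGroup q Q' := hQ.map _
    have hcent' : ∀ x ∈ powComm (G ⧸ M) (q - 1), (orderOf x).Coprime q → ∀ r ∈ Q', x * r = r * x := by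
      rintro x hx hxq _ ⟨r, hr, rfl⟩
      rw [← powComm_map (q - 1) (QuotientGroup.mk' M) (QuotientGroup.mk'_surjective M)] at hx
      obtain ⟨y, hy, rfl⟩ := hx
      obtain ⟨t, ht1, ht2⟩ := exists_coprime_pow.{u} (q := q) y
      have h1 := hcent (y ^ t) (pow_mem hy t) ht1 r hr
      have h2 := ht2 (QuotientGroup.mk' M) hxq
      rw [← h2, ← map_mul, ← map_mul, h1]
    have hss' : Cfsg.IsSupersolvable ((G ⧸ M) ⧸ Q') :=
      SolvableStructure.SupersolvableBasic.of_mulEquiv hss
        (QuotientGroup.quotientQuotientEquivQuotient M Q hMQ).symm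
    have h1 := ih _ hlt Q' rfl hQ' hcent' hss'
    exact SolvableStructure.SupersolvableBasic.of_normal_isCyclic M hMc h1

end Cfsg.Agent.H269
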